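import Cfsg.Agent.Lib.Tame.QSD
import Cfsg.Agent.Lib.Block.Solv

/-!
# Dihedral and semidihedral blocks of rank three
-/

set_option autoImplicit false
set_option linter.unusedSectionVars false
set_option linter.dupNamespace false

namespace Cfsg.Lib.Tame

open _root_.Cfsg.Lib.Block MonoidAlgebra Cfsg.Lib.Char Cfsg.Lib.Modular Cfsg.Lib.Transfer Subgroup
open Cfsg.Lib.Inv Cfsg.Lib.Induce Prs Finset

universe u

theorem pRegularPart_indFun {G : Type*} [Group G] [Fintype G] (p : ℕ) (H : Subgroup G)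
    (θ : H → ℂ) : pRegularPart p (indFun H θ) = indFun H (pRegularPart p θ) := by
  classical
  ext g
  rw [pRegularPart_apply, indFun_apply', indFun_apply', ← mul_zero (Nat.card H : ℂ)⁻¹, ← mul_ite,
    ← sum_const_zero (s := univ (α := G)), ← sum_ite_irrel]
  refine congrArg _ (sum_congr rfl fun x _ => ?_)
  simp only [extendByZero_apply, pRegularPart_apply, orderOf_mk,
    ← orderOf_eq_of_isConj (isConj_iff.2 ⟨x, rfl⟩)]
  split_ifs <;> rfl

theorem blockRank_le_of_indFun {G : Type*} [Group G] [Fintype G] {p : ℕ} {H : Subgroup G}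
    {B : Set (IrrCharacter G)} {B' : Set (IrrCharacter H)}
    (h : ∀ χ ∈ B, ∃ ψ ∈ B', χ.1 = indFun H ψ.1) : blockRank p B ≤ blockRank p B' := by
  refine (Submodule.finrank_mono (Submodule.span_le.2 ?_)).trans
    (Submodule.finrank_map_le (indLin H) _)
  rintro _ ⟨χ, hχ, rfl⟩
  obtain ⟨ψ, hψ, e⟩ := h χ hχ
  exact ⟨_, Submodule.subset_span ⟨ψ, hψ, rfl⟩, by simp only [e, pRegularPart_indFun]; rfl⟩

theorem comm_of_isConj {G : Type*} [Group G] [Finite G] {p : ℕ} [Fact p.Prime]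
    (hG : IsPConstrained p G) (S : Sylow p G) {z x y : G}
    (hz : z ∈ centralizer ((S : Subgroup G) : Set G)) (hx : x ∈ S) (hy : y ∈ S) (h1 : IsConj z x)
    (h2 : IsConj z y) : x * y = y * x := by
  let f := QuotientGroup.mk' (pPrimeCore p G)
  have h3 : ∀ x, IsConj z x → f x ∈ centralizer (pCore p (G ⧸ pPrimeCore p G) : Set _) :=
    fun x h => by
      obtain ⟨g, rfl⟩ := isConj_iff.1 h
      rw [map_mul, map_mul, map_inv]
      refine Normal.conj_mem inferInstance _ (fun q hq => ?_) _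
      obtain ⟨s, hs, rfl⟩ := Core.pCore_le_sylow
        (S.mapSurjective (QuotientGroup.mk'_surjective _)) hq
      rw [← map_mul, hz s hs, map_mul]
  have h4 := h3 y h2 _ (Core.isPConstrained_iff.1 hG (h3 x h1))
  rw [← map_mul, ← map_mul, ← mul_inv_eq_one, ← map_inv, ← map_mul, ← MonoidHom.mem_ker,
    QuotientGroup.ker_mk'] at h4
  exact mul_inv_eq_one.1 (mem_bot.1 (Core.inf_pPrimeCore_eq_bot S.isPGroup' ▸
    mem_inf.2 ⟨mul_mem (mul_mem hx hy) (inv_mem (mul_mem hy hx)), h4⟩))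

variable {G : Type u} [Group G] [Fintype G] {M : Ideal AlgInt} [Modular 2 M]
  {B : Set (IrrCharacter G)} {D : Subgroup G} {a b : G} {μ : ℕ} {ε : ℤ}

theorem isConj_of_rank (hB : IsPBlock M B) (hD : IsDefectGroup 2 M B D) (h : MC D a b μ ε 0)
    (hε : ε = 0 ∧ μ ≠ 0 ∨ ε = 1) (hl : 3 ≤ blockRank 2 B) {v : G} (hv : v ∈ D) (h1 : v ≠ 1)
    (h2 : v * v = 1) : IsConj (a ^ (2 : ℤ) ^ μ) v := by
  classical
  obtain ⟨ω₀, hm, rfl⟩ := exists_isMax hB hD
  have h3 : ⟨v, hv⟩ ∈ invs ω₀ := by simp [h1, h2]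
  refine Fus.isConj (u := ⟨_, h.zpow_mem (2 ^ μ)⟩) (v := ⟨v, hv⟩) ?_
  obtain ⟨rfl, hμ⟩ | rfl := hε
  · obtain ⟨X, -, h4, -, h5, h6⟩ := dih_card hm h hμ
    obtain ⟨x, hx, h7⟩ := h5 _ h3
    rw [dih_card_eq hm h hμ] at h6
    rwa [card_le_one.1 (by omega) _ h4 _ hx]
  · obtain ⟨ν, rfl⟩ : ∃ ν, μ = ν + 2 := Nat.exists_eq_add_of_le'
      ((pow_dvd_pow_iff two_ne_zero (by decide)).1 (show (2 : ℤ) ^ 2 ∣ _ by simpa using h.four))
    obtain ⟨h4, h5⟩ := sd_card hm h (by omega) (z := ⟨_, h.zpow_mem _⟩) rfl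
    obtain ⟨-, h6, -⟩ := card_and_heights hm h (z := ⟨_, h.zpow_mem _⟩) rfl (by omega) (by omega)
    split_ifs at h5 with h7
    · by_cases h8 : (⟨v, hv⟩ : ω₀.grp) = ⟨_, h.zpow_mem (2 ^ (ν + 2))⟩
      · exact h8 ▸ Fus.refl _
      obtain ⟨i, hi, h9⟩ := exists_of_mem_invs h rfl h3 h8
      obtain ⟨k, hk⟩ := h.exists_conj_refl (i := 0) (j := i) (by simpa using h9)
      exact h7.trans (fus_of_isConj (isConj_iff.2 ⟨⟨_, h.zpow_mem k⟩, Subtype.ext
        (by simpa [show v = _ from hi] using hk)⟩))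
    · omega

omit [Fintype G] in
theorem exists_not_comm (h : MC D a b μ ε 0) (hε : ε = 0 ∧ μ ≠ 0 ∨ ε = 1) : ∃ i : ℤ,
    a ^ i * b * (a ^ i * b) = 1 ∧ a ^ (0 : ℤ) * b * (a ^ i * b) ≠ a ^ i * b * (a ^ (0 : ℤ) * b) := by
  simp only [h.refl_mul_refl, h.zpow_eq_one_iff, Ne, h.zpow_eq_iff]
  obtain ⟨rfl, hμ⟩ | rfl := hε
  · obtain ⟨ν, rfl⟩ := Nat.exists_eq_add_one_of_ne_zero hμ
    exact ⟨1, by simp, fun ⟨c, hc⟩ => by
      rw [show (2 : ℤ) ^ (ν + 1 + 1) * c = 4 * (2 ^ ν * c) by ring] at hc; omega⟩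
  · obtain ⟨k, hk⟩ := h.four
    exact ⟨2, ⟨1, by ring⟩, fun ⟨c, hc⟩ => by
      rw [one_mul] at hk
      rw [pow_succ, hk, show 4 * k * 2 * c = 8 * (k * c) by ring] at hc; omega⟩

theorem odd_card_center (hB : IsPBlock M B) (hD : IsDefectGroup 2 M B D) (h : MC D a b μ ε 0)
    (hε : ε = 0 ∧ μ ≠ 0 ∨ ε = 1) (hl : 3 ≤ blockRank 2 B) : Odd (Nat.card (center G)) := by
  by_contra h1
  obtain ⟨⟨c, hc⟩, h2⟩ := exists_prime_orderOf_dvd_card' 2 (Nat.not_odd_iff_even.1 h1).two_dvd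
  rw [orderOf_mk] at h2
  have : (zpowers c).Normal := ⟨fun n hn g => by
    rwa [mem_center_iff.1 (zpowers_le.2 hc hn) g, mul_inv_cancel_right]⟩
  obtain ⟨g, hg⟩ := isConj_iff.1 (isConj_of_rank hB hD h hε hl (hB.le_defectGroup_of_normal hD
    (.of_card (n := 1) (by rw [Nat.card_zpowers, h2, pow_one])) (mem_zpowers c))
    (ord_two_iff.1 h2).1 (ord_two_iff.1 h2).2).symm
  obtain ⟨g', hg'⟩ := isConj_iff.1 (isConj_of_rank hB hD h hε hl (h.refl_mem 0) (h.refl_ne_one 0)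
    (by simpa using h.sq))
  rw [mem_center_iff.1 hc g, mul_inv_cancel_right] at hg
  rw [← hg, mem_center_iff.1 hc g', mul_inv_cancel_right, hg] at hg'
  exact h.refl_ne _ _ hg'.symm

theorem blockRank_lt_of_isPSolvable (hG : IsPSolvable 2 G) (hB : IsPBlock M B) :
    ∀ {D : Subgroup G} {a b : G}, IsDefectGroup 2 M B D → MC D a b μ ε 0 →
      ε = 0 ∧ μ ≠ 0 ∨ ε = 1 → blockRank 2 B < 3 := by
  refine fong_induction 2 M (fun G _ _ B => ∀ {D : Subgroup G} {a b : G}, IsDefectGroup 2 M B D →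
    MC D a b μ ε 0 → ε = 0 ∧ μ ≠ 0 ∨ ε = 1 → blockRank 2 B < 3)
    (fun G _ _ N T _ _ c hNT B' B _ hc hT hcov hind ih D a b hD h hε => ?_)
    (fun G _ _ _ θ B hG _ hB _ hS D a b hD h hε => not_le.1 fun hl => ?_) G hG B hB
  · obtain ⟨D', hD'⟩ := hind.1.exists_isDefectGroup (p := 2)
    obtain ⟨x, hx⟩ := hind.2.1.exists_conj_eq hD (hcov.isDefectGroup_map hc hT hind hD')
    have h1 := hx ▸ h.conjugate x
    exact (blockRank_le_of_indFun fun χ => (hcov.mem_iff_indFun hc hT hind χ).1).trans_lt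
      (ih hD' (mc_of_map T.subtype_injective (a := ⟨_, map_subtype_le _ h1.a_mem⟩)
        (b := ⟨_, map_subtype_le _ h1.b_mem⟩) h1) hε)
  · obtain ⟨S, hS'⟩ := hD.isPGroup.exists_le_sylow
    obtain rfl := eq_of_le_of_card_ge hS' (hB.card_defectGroup_eq (hS S) hD).le
    obtain ⟨i, h1, h2⟩ := exists_not_comm h hε
    exact h2 (comm_of_isConj (Core.isPConstrained_of_isPSolvable hG) S (fun _ hx => h.z_comm hx)
      (h.refl_mem 0) (h.refl_mem i)
      (isConj_of_rank hB hD h hε hl (h.refl_mem 0) (h.refl_ne_one 0) (by simpa using h.sq))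
      (isConj_of_rank hB hD h hε hl (h.refl_mem i) (h.refl_ne_one i) h1))

end Cfsg.Lib.Tame
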